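import Cfsg.Agent.H424.Spr.Core

/-!
# S3938: the universal lemma with induction, characteristic two (helper862; idea helper891)

`L` a group, `a` an automorphism, `u` an involution (long root element, `|A| = 2`), `a u` opposite to `u`
(`(u * a u) ^ 3 = 1`), `c = u * a u * u`, `D` centralises `u` and `a u`, `s ∈ D` of odd order.
`body` : the `Spr` statement for this `a`.
-/

set_option autoImplicit false

namespace Cfsg.Agent.H862.Spr

variable {L : Type*} [Group L]

/-- the statement of `Spr` for one automorphism -/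
def Body (a : MulAut L) : Prop := ∃ x : L, ∀ K : Subgroup L, x ∈ K → (∀ k ∈ K, a k ∈ K) → K = ⊤

theorem spr_iff_body : H424.Spr.Spr L ↔ ∀ a : MulAut L, a ≠ 1 → Body a := Iff.rfl

theorem invariant_pow {a : MulAut L} {K : Subgroup L} (h : ∀ k ∈ K, a k ∈ K) (n : ℕ) :
    ∀ k ∈ K, (a ^ n) k ∈ K := by
  induction n with
  | zero => intro k hk; simpa using hk
  | succ n ih =>
    intro k hk
    rw [pow_succ, MulAut.mul_apply]
    exact ih _ (h k hk)

/-- it is enough to treat a power of `a` -/
theorem Body.of_pow {a : MulAut L} {n : ℕ} (h : Body (a ^ n)) : Body a := by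
  obtain ⟨x, hx⟩ := h
  exact ⟨x, fun K h1 h2 => hx K h1 (invariant_pow h2 n)⟩

/-- transport along an automorphism -/
theorem Body.conj {a : MulAut L} (g : MulAut L) (h : Body a) : Body (g * a * g⁻¹) := by
  obtain ⟨x, hx⟩ := h
  refine ⟨g x, fun K h1 h2 => ?_⟩
  have h3 := hx (K.comap g.toMonoidHom) h1 (by
    intro k hk
    have h4 : g k ∈ K := hk
    have h5 := h2 _ h4
    rw [MulAut.mul_apply, MulAut.mul_apply] at h5
    change g (a k) ∈ K
    have h6 : (g⁻¹ : MulAut L) (g k) = k := by rw [← MulAut.mul_apply, inv_mul_cancel, MulAut.one_apply]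
    rwa [h6] at h5)
  rw [eq_top_iff]
  intro y _
  have h7 : (g⁻¹ : MulAut L) y ∈ K.comap g.toMonoidHom := by rw [h3]; trivial
  have h8 : g ((g⁻¹ : MulAut L) y) ∈ K := h7
  rwa [← MulAut.mul_apply, mul_inv_cancel, MulAut.one_apply] at h8

theorem Body.conj_iff {a : MulAut L} (g : MulAut L) : Body (g * a * g⁻¹) ↔ Body a := by
  refine ⟨fun h => ?_, Body.conj g⟩
  have h1 := Body.conj g⁻¹ h
  have h2 : g⁻¹ * (g * a * g⁻¹) * g⁻¹⁻¹ = a := by group
  rwa [h2] at h1

/-- **`Spr` from the automorphisms of prime order.** -/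
theorem spr_of_prime [Finite L] (h : ∀ a : MulAut L, (orderOf a).Prime → Body a) : H424.Spr.Spr L := by
  intro a ha
  have hfin : Finite (MulAut L) := Finite.of_injective (fun f : MulAut L => (f : L → L)) DFunLike.coe_injective
  have h0 : 0 < orderOf a := orderOf_pos a
  have h1 : orderOf a ≠ 1 := fun h => ha (orderOf_eq_one_iff.1 h)
  obtain ⟨p, hp, n, hn⟩ := Nat.exists_prime_and_dvd h1
  have h2 : orderOf (a ^ n) = p := by
    rw [orderOf_pow_of_dvd]
    · rw [hn]
      exact Nat.mul_div_cancel _ (Nat.pos_of_mul_pos_left (hn ▸ h0) |> fun h => h)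
    · rintro rfl
      rw [mul_zero] at hn
      omega
    · exact ⟨p, by rw [hn, mul_comm]⟩
  exact Body.of_pow (h _ (h2 ▸ hp))

/-- **UL2, characteristic two.** -/
theorem body_of_ul2 {a : MulAut L} {u s w y : L} (hu : u * u = 1)
    (hy : Commute u y) (hco : (orderOf u).Coprime (orderOf y)) (hyw : y = s * w ∨ y = s * w * u)
    (hsu : Commute s u) (hsu' : Commute s (a u)) (hw : w * w = 1)
    (hopp : a u * w * a u = w * (u * a u * u * w * (u * a u * u)))
    (hD : ∀ K : Subgroup L, s ∈ K → u ∈ K → a u ∈ K → w ∈ K → (∀ k ∈ K, a k ∈ K) → K = ⊤) : Body a := by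
  have hu' : a u * a u = 1 := by rw [← map_mul, hu, map_one]
  refine ⟨u * y, fun K hx hinv => ?_⟩
  -- `u` and `y` are powers of `u * y`
  have hcl : ∀ z ∈ Subgroup.zpowers (u * y), z ∈ K := fun z hz =>
    (Subgroup.zpowers_le.2 hx) hz
  have hmem : u ∈ Subgroup.zpowers (u * y) ∧ y ∈ Subgroup.zpowers (u * y) := by
    have hgcd : Int.gcd (orderOf u) (orderOf y) = 1 := by simpa using hco
    have hbez := Int.gcd_eq_gcd_ab (orderOf u) (orderOf y)
    rw [hgcd] at hbez
    set m := Int.gcdA (orderOf u) (orderOf y)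
    set n := Int.gcdB (orderOf u) (orderOf y)
    have e1 : (u * y) ^ ((orderOf y : ℤ) * n) = u := by
      rw [hy.mul_zpow, zpow_mul y, zpow_natCast, pow_orderOf_eq_one, one_zpow, mul_one]
      have : (orderOf y : ℤ) * n = 1 - (orderOf u : ℤ) * m := by
        push_cast at hbez; linarith
      rw [this, zpow_sub, zpow_one, zpow_mul, zpow_natCast, pow_orderOf_eq_one, one_zpow, inv_one, mul_one]
    have e2 : (u * y) ^ ((orderOf u : ℤ) * m) = y := by
      rw [hy.mul_zpow, zpow_mul u, zpow_natCast, pow_orderOf_eq_one, one_zpow, one_mul]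
      have : (orderOf u : ℤ) * m = 1 - (orderOf y : ℤ) * n := by
        push_cast at hbez; linarith
      rw [this, zpow_sub, zpow_one, zpow_mul, zpow_natCast, pow_orderOf_eq_one, one_zpow, inv_one, mul_one]
    exact ⟨⟨_, e1⟩, ⟨_, e2⟩⟩
  have huK : u ∈ K := hcl _ hmem.1
  have hyK : y ∈ K := hcl _ hmem.2
  have hu'K : a u ∈ K := hinv _ huK
  have hswK : s * w ∈ K := by
    rcases hyw with h | h
    · rwa [← h]
    · have : y * u = s * w := by rw [h, mul_assoc, hu, mul_one]
      rw [← this]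
      exact K.mul_mem hyK huK
  set c := u * a u * u with hc
  have hcK : c ∈ K := K.mul_mem (K.mul_mem huK hu'K) huK
  have hcc : c * c = 1 := by
    rw [hc]
    calc u * a u * u * (u * a u * u) = u * a u * (u * u) * a u * u := by simp only [mul_assoc]
      _ = 1 := by rw [hu, mul_one, mul_assoc u, hu', mul_one, hu]
  have hsc : Commute s c := (hsu.mul_right hsu').mul_right hsu
  have h1 : (s * w)⁻¹ * (c * (s * w) * c) ∈ K :=
    K.mul_mem (K.inv_mem hswK) (K.mul_mem (K.mul_mem hcK hswK) hcK)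
  have h2 : (s * w)⁻¹ * (c * (s * w) * c) = w * (c * w * c) := by
    have hwi : w⁻¹ = w := inv_eq_of_mul_eq_one_left hw
    calc (s * w)⁻¹ * (c * (s * w) * c) = w⁻¹ * (s⁻¹ * (c * s)) * w * c := by group
      _ = w⁻¹ * (s⁻¹ * (s * c)) * w * c := by rw [hsc.eq]
      _ = w * (c * w * c) := by rw [inv_mul_cancel_left, hwi]; simp only [mul_assoc]
  rw [h2, ← hopp] at h1
  have hwK : w ∈ K := by
    have h3 : a u * (a u * w * a u) * a u ∈ K := K.mul_mem (K.mul_mem hu'K h1) hu'K
    have h4 : a u * (a u * w * a u) * a u = w := by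
      calc a u * (a u * w * a u) * a u = (a u * a u) * w * (a u * a u) := by simp only [mul_assoc]
        _ = w := by rw [hu', one_mul, mul_one]
    rwa [h4] at h3
  have hsK : s ∈ K := by
    have : s * w * w = s := by rw [mul_assoc, hw, mul_one]
    rw [← this]
    exact K.mul_mem hswK hwK
  exact hD K hsK huK hu'K hwK hinv

end Cfsg.Agent.H862.Spr
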