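import Cfsg.Agent.H424.Spr.AltC

/-!
# S3938: the alternating row in the form of `Rows.lean` (helper862)
-/

set_option autoImplicit false

namespace Cfsg.Agent.H862.Spr

open Cfsg
open Cfsg.Agent.H424.Spr (Spr)

/-- the row of the alternating groups -/
theorem row_alt {n : ℕ} (hn : 5 ≤ n) : Spr ↥(alternatingGroup (Fin n)) := by
  have hs : IsSimpleGroup ↥(alternatingGroup (Fin n)) := alternatingGroup.isSimpleGroup (by
    rw [Nat.card_eq_fintype_card, Fintype.card_fin]; exact hn)
  refine H424.SprAlt.row_alternating ?_ ⟨n, hn, ⟨MulEquiv.refl _⟩⟩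
  by_contra hcon
  push Not at hcon
  let _ : CommGroup ↥(alternatingGroup (Fin n)) :=
    { (inferInstance : Group ↥(alternatingGroup (Fin n))) with mul_comm := hcon }
  have h1 : (Nat.card ↥(alternatingGroup (Fin n))).Prime := IsSimpleGroup.prime_card
  have hnt : Nontrivial (Fin n) := Fin.nontrivial_iff_two_le.2 (by omega)
  have h2 : 2 * Nat.card ↥(alternatingGroup (Fin n)) = n.factorial := by
    rw [Nat.card_eq_fintype_card, two_mul_card_alternatingGroup, Fintype.card_perm, Fintype.card_fin]
  have h3 : Nat.factorial 5 ∣ n.factorial := Nat.factorial_dvd_factorial hn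
  rw [← h2] at h3
  have h4 : Nat.factorial 5 = 2 * 60 := by decide
  rw [h4] at h3
  have h5 : 60 ∣ Nat.card ↥(alternatingGroup (Fin n)) := Nat.dvd_of_mul_dvd_mul_left (by norm_num) h3
  have h6 : 4 ∣ Nat.card ↥(alternatingGroup (Fin n)) := Dvd.dvd.trans (by norm_num) h5
  rcases (Nat.dvd_prime h1).1 h6 with h7 | h7
  · omega
  · rw [← h7] at h1
    exact absurd h1 (by norm_num)

end Cfsg.Agent.H862.Spr
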